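import Cfsg.Agent.HNR.Cent
import Cfsg.Agent.HNR.Fus
import Cfsg.Agent.HNS.AbsD2

/-! The centraliser of a `2`-central involution in the presence of an odd core. -/

set_option autoImplicit false
set_option maxRecDepth 100000

namespace Cfsg.Agent.HNS

open Subgroup Cfsg.Agent.Comp HNR HNR.DL

theorem inv_eq_pow {K : Type*} [Group K] {x a o : K} (h : x * x = 1) (e : x = a * o)
    (ho : Odd (orderOf o)) (c : Commute o a) : x = a ^ orderOf o := by
  rw [← mul_one (a ^ _), ← pow_orderOf_eq_one o, ← c.symm.mul_pow, ← e]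
  obtain ⟨k, hk⟩ := ho
  rw [hk, pow_succ, pow_mul, pow_two, h, one_pow, one_mul]

variable {Λ : Type*} [Group Λ] (e : Λ ≃* gen ns [[0], [2], [4]])

local notation "t" => ev e ns [44]
local notation "u" => ev e ns [46]

theorem top' {K : Type*} [Group K] [Finite K] (f : Λ →* K)
    (hf : ∀ p q, f p = f q ↔ p = q ∨ p = q * u) {L : Subgroup K} (hC : centralizer {f t} ≤ L)
    (hle : ∀ p, f p ∈ L) (hL : ∀ x ∈ L, ∃ p o, x = f p * o ∧ Odd (orderOf o) ∧ ∀ q, Commute o (f q))
    (hc : ∀ p, IsConj (f t) (f p) → IsConj t p) : L = ⊤ := by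
  have := mo.finite e
  have eu : ∀ {v w}, equ v w = true → f (ev e ns v) = f (ev e ns w) := fun h => (hf _ _).2 (by
    rw [equ, or'_eq_true] at h
    exact h.imp (qs' e _ _) fun h => by simpa only [ev_appendR] using qs' e _ _ h)
  let F : ℕ → K := fun k => f (ev e ns (nfW 2 DL.qs k))
  have kq : ∀ k, inK KA (nfW 2 DL.qs k) = true := inK_nfW (by decide +kernel)
  have F1 : ∀ k j, F k * F j = F (k ^^^ j) := nf_xor e ns f fun a ha => by
    have h := (allL_iff _ _).1 q_cm a ha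
    rw [and'_eq_true, allL_iff] at h
    refine ⟨by simpa [← map_mul, ← ev_append] using eu h.1, fun b hb => ?_⟩
    simpa [Commute, SemiconjBy, ← map_mul, ← ev_append] using (eu (h.2 b hb)).symm
  have F0 : F 0 = 1 := (congrArg f (qs' e _ [] (by decide +kernel))).trans (map_one f)
  have F2 : ∀ k, F k * F k = 1 := fun k => by rw [F1, Nat.xor_self, F0]
  have xl : ∀ {k j}, k < 256 → j < 256 → k ^^^ j < 256 := Nat.xor_lt_two_pow (n := 8)
  have F3 : ∀ k < 256, ∀ j < 256, F k = F j → k = j := fun k hk j hj h => by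
    have h1 := (allLT_iff _ _).1 q_ne _ (xl hk hj)
    simp only [or'_eq_true, and'_eq_true, not'_eq_true, beq_iff] at h1
    refine Nat.xor_eq_zero_iff.1 (h1.resolve_right fun h1 => ?_)
    have h2 := F1 k j
    rw [h, F2, ← map_one f] at h2
    rcases (hf _ _).1 h2.symm with h3 | h3
    · exact h1.1 (eqO_of_eq mo hE bas e (kq _) rfl h3)
    · exact h1.2 (eqO_of_eq mo hE bas e (kq _) (by decide +kernel) (h3.trans (one_mul _)))
  let A : Subgroup K :=
    { carrier := {x | ∃ k < 256, F k = x}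
      one_mem' := ⟨0, by decide, F0⟩
      mul_mem' := by rintro _ _ ⟨k, hk, rfl⟩ ⟨j, hj, rfl⟩; exact ⟨_, xl hk hj, (F1 k j).symm⟩
      inv_mem' := by rintro _ ⟨k, hk, rfl⟩; exact ⟨k, hk, eq_inv_of_mul_eq_one_left (F2 k)⟩ }
  have cnt : ∀ (p : K → Prop) (q : ℕ → Bool), (∀ k < 256, p (F k) → q k = true) →
      {x | x ∈ A ∧ p x}.ncard ≤ cntLT 256 q ∧ ((∀ k < 256, q k = true → p (F k)) →
        {x | x ∈ A ∧ p x}.ncard = cntLT 256 q) := fun p q h => by
    classical
    rw [cntLT_eq, ← Finset.card_image_of_injOn (f := F) (fun k hk j hj => F3 k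
      (Finset.mem_range.1 (Finset.mem_filter.1 hk).1) j (Finset.mem_range.1 (Finset.mem_filter.1 hj).1)),
      ← Set.ncard_coe_finset]
    have h1 : {x | x ∈ A ∧ p x} ⊆ (Finset.image F ((Finset.range 256).filter fun k => q k = true)) := by
      rintro _ ⟨⟨k, hk, rfl⟩, h1⟩
      exact Finset.mem_coe.2 (Finset.mem_image.2 ⟨k, Finset.mem_filter.2
        ⟨Finset.mem_range.2 hk, h k hk h1⟩, rfl⟩)
    refine ⟨Set.ncard_le_ncard h1, fun h2 => congrArg _ (h1.antisymm fun x hx => ?_)⟩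
    obtain ⟨k, hk, rfl⟩ := Finset.mem_image.1 (Finset.mem_coe.1 hx)
    rw [Finset.mem_filter, Finset.mem_range] at hk
    exact ⟨⟨k, hk.1, rfl⟩, h2 k hk.1 hk.2⟩
  have hn : ∀ p, f p ∈ normalizer (A : Set K) := fun p =>
    (mo.k.sub_le_iff e (by decide +kernel) (H := (normalizer (A : Set K)).comap f)).2 (fun g hg => by
      obtain ⟨g, g1, rfl⟩ : ∃ a ∈ [0, 2, 4], [a] = g := by simpa [eq_comm] using hg
      obtain ⟨ks, h1⟩ := exists_of_all2 q_nrm g1
      refine mem_normalizer_fintype ?_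
      rintro _ ⟨k, -, rfl⟩
      refine ev_ind e ns (H := (A.comap (MulAut.conj (f (ev e ns [g]))).toMonoidHom).comap f)
        fun a ha => ?_
      obtain ⟨j, h2⟩ := exists_of_all2 h1 (mem_nfW ha)
      rw [and'_eq_true, blt_iff] at h2
      refine ⟨j, h2.1, eq_mul_inv_iff_mul_eq.2 ?_⟩
      simpa [F, ← map_mul, ← ev_append] using (eu h2.2).symm) (top e p)
  have hE' : ∀ k < 256, IsConj (f t) (F k) ↔ tb ME k = true := fun k hk => ⟨fun h => by
    have h1 := (allLT_iff _ _).1 q_cnt k hk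
    rw [or'_eq_true, not'_eq_true, beq_iff, mo.cnt_eq e (by decide +kernel) (kq k) (hc _ h)] at h1
    exact h1.resolve_right (not_not.2 t_cnt), fun h => by
    have h1 := (allLT_iff _ _).1 q_E k hk
    rw [or'_eq_true, not'_eq_true] at h1
    have h2 := qs' e _ _ (h1.resolve_left (not_not.2 h))
    rw [ev_appendR, ev_appendR] at h2
    exact f.map_isConj (isConj_iff.2 ⟨_, mul_inv_eq_iff_eq_mul.2 h2⟩)⟩
  have e32 : F 32 = f t := congrArg f (qs' e _ _ (by decide +kernel))
  refine eq_top_of_counts' (z := f t) (A := A) (by rw [← map_mul, DL.tt, map_one])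
    (fun h => absurd (F3 32 (by decide) 0 (by decide) (by rw [e32, h, F0])) (by decide)) hC ?_ ?_ ?_
    ?_ ⟨32, by decide, e32⟩ ?_ ?_ ?_ ?_
  · intro x hx h
    obtain ⟨p, o, e1, e2, e3⟩ := hL x hx
    obtain rfl := inv_eq_pow (sq_of_isConj h.symm (by rw [← map_mul, DL.tt, map_one])) e1 e2 (e3 p)
    rw [← map_pow] at h ⊢
    obtain ⟨g, hg⟩ := isConj_iff.1 (hc _ h)
    exact ⟨f g, hle g, by simp [← hg]⟩
  · rintro _ ⟨k, -, rfl⟩; exact hle _
  · rintro x hx _ ⟨k, hk, rfl⟩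
    obtain ⟨p, o, rfl, -, e3⟩ := hL x hx
    rw [mul_assoc (f p), (e3 _).eq, show f p * (F k * o) * (f p * o)⁻¹ = f p * F k * (f p)⁻¹ by group]
    exact (mem_normalizer_iff.1 (hn p) _).1 ⟨k, hk, rfl⟩
  · rintro _ ⟨k, -, rfl⟩; exact F2 k
  · have := (cnt (fun _ => True) (fun _ => true) fun _ _ _ => rfl).2 fun _ _ _ => trivial
    simp only [and_true] at this
    exact (Nat.card_coe_set_eq _).trans (this.trans (by decide +kernel))
  · exact ((cnt _ _ fun k hk => (hE' k hk).1).2 fun k hk => (hE' k hk).2).trans q_60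
  · rintro _ ⟨j, hj, rfl⟩ h1 h2
    have h3 := (allLT_iff _ _).1 q_12 j hj
    simp only [or'_eq_true, beq_iff] at h3
    rw [← (h3.resolve_left fun h => h1 (h ▸ F0)).resolve_left (mt (hE' j hj).2 h2)]
    simp only [and_assoc]
    have h4 : ∀ k < 256, IsConj (f t) (F k) ∧ IsConj (f t) (F k * F j) ↔
        and' (tb ME k) (tb ME (Nat.xor k j)) = true := fun k hk => by
      rw [and'_eq_true, F1, hE' k hk, hE' _ (xl hk hj)]; rfl
    exact (cnt _ _ fun k hk => (h4 k hk).1).2 fun k hk => (h4 k hk).2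
  · intro d hd n h5 h1
    have : Fact (Nat.Prime 5) := ⟨by norm_num⟩
    obtain ⟨p0, o, rfl, -, e3⟩ := hL d hd
    obtain ⟨p, hp⟩ : ∃ p, p = p0 ^ 147456 := ⟨_, rfl⟩
    obtain ⟨g, hg⟩ := exists_conj_mem (k := 2) (mo.isPGroup e (by decide) ds_pc (by decide +kernel))
      (mo.le_card_sub e ds_B (by decide +kernel)) (by rw [card_eq e]; decide) (x := p) (m := 2)
      (by rw [hp, ← pow_mul, show 147456 * 5 ^ 2 = 3686400 from rfl, ← card_eq e, pow_card_eq_one'])
    obtain ⟨j, hj, h4⟩ := mo.exists_nf e (by decide) ds_pc (by decide +kernel) hg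
    have h6 := (allLT_iff _ _).1 q_5 j hj
    simp only [or'_eq_true, beq_iff, force_eq, blt_iff] at h6
    have h7 : f (ev e ns (nfW 5 ds j)) = f g * f p * (f g)⁻¹ := by
      rw [h4, map_mul, map_mul, map_inv]
    have kd : inK KA (nfW 5 ds j) = true := inK_nfW (by decide +kernel) j
    have ka : ∀ {v w}, inK KA v = true → inK KA w = true → inK KA (appendR v w) = true :=
      fun h1 h2 => (allL_iff _ _).2 fun a ha => (List.mem_append.1 (appendR_eq _ _ ▸ ha)).elim
        ((allL_iff _ _).1 h1 a) ((allL_iff _ _).1 h2 a)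
    refine lt_of_le_of_lt ?_ ((cnt (fun x => ¬ IsConj (f t) x ∧ f (ev e ns (nfW 5 ds j)) * x =
      x * f (ev e ns (nfW 5 ds j))) (fx5 j) fun k hk h => ?_).1.trans_lt (h6.resolve_left ?_))
    · refine Set.ncard_le_ncard_of_injOn (MulAut.conj (f g)) (fun x hx =>
        ⟨(mem_normalizer_iff.1 (hn g) x).1 hx.1, fun h => hx.2.1
          (h.trans (isConj_iff.2 ⟨_, rfl⟩).symm), ?_⟩) (MulAut.conj (f g)).injective.injOn
      obtain ⟨k, -, rfl⟩ := hx.1
      have h8 : Commute (f p0) (F k) := by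
        simpa using (show Commute _ (F k) from hx.2.2).mul_left (e3 _).inv_left
      rw [h7, MulAut.conj_apply, conj_mul, conj_mul, hp, map_pow, (h8.pow_left _).eq]
    · simp only [fx5, and'_eq_true, or'_eq_true, not'_eq_true]
      refine ⟨mt (hE' k hk).2 h.1, ((hf (ev e ns (nfW 5 ds j) * ev e ns (nfW 2 DL.qs k))
        (ev e ns (nfW 2 DL.qs k) * ev e ns (nfW 5 ds j))).1 (by rw [map_mul, map_mul]; exact h.2)).imp
        (fun h => eqO_of_eq mo hE bas e (ka kd (kq k)) (ka (kq k) kd) ?_)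
        fun h => eqO_of_eq mo hE bas e (ka kd (kq k)) (ka (kq k) (ka kd (by decide +kernel))) ?_⟩
      · simpa only [ev_appendR] using h
      · simpa only [ev_appendR, mul_assoc] using h
    · rintro rfl
      rw [qs' e _ [] (by decide +kernel), ev_nil, map_one, eq_comm, conj_eq_one_iff] at h7
      obtain ⟨i, hi⟩ : f p0 * o ∈ zpowers ((f p0 * o) ^ 147456) := mem_zpowers_pow_iff.2
        (Nat.Coprime.coprime_dvd_right (orderOf_dvd_of_pow_eq_one h5) (Nat.Coprime.pow_right n (by decide)))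
      rw [(e3 p0).symm.mul_pow, ← map_pow, ← hp, h7, one_mul] at hi
      exact h1 (hi ▸ ((e3 _).pow_left _).zpow_left i)

theorem cent_le' {G : Type*} [Group G] [Finite G] (ψ : Λ →* G) (hψ : Function.Injective ψ)
    {H : Subgroup G} (hle : ∀ p, ψ p ∈ H) (hH : ∀ x ∈ H, x * ψ u = ψ u * x →
      ∃ p o, x = ψ p * o ∧ Odd (orderOf o) ∧ ∀ q, Commute o (ψ q))
    (h1 : ∀ g, g * ψ t = ψ t * g → g ∈ H) (h2 : ¬ IsConj (ψ u) (ψ t))
    (h3 : ∀ r ∈ rs, IsConj (ψ (ev e ns r)) (ψ u) ∨ IsConj (ψ (ev e ns r) * ψ u) (ψ u))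
    {g : G} (hg : g * ψ u = ψ u * g) : g ∈ H := by
  let ψ' : Λ →* centralizer {ψ u} := ψ.codRestrict _ fun p =>
    mem_centralizer_singleton_iff.2 (by rw [← map_mul, ← map_mul, u_cen])
  have uc : ∀ g : centralizer {ψ u}, Commute g (ψ' u) := fun g =>
    Subtype.ext (mem_centralizer_singleton_iff.1 g.2)
  have u2 : ψ' u * ψ' u = 1 := by rw [← map_mul, uu, map_one]
  have : (zpowers (ψ' u)).Normal := ⟨by
    rintro _ ⟨n, rfl⟩ g
    exact ⟨n, by simp only; rw [((uc g).zpow_right n).eq, mul_inv_cancel_right]⟩⟩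
  let π := QuotientGroup.mk' (zpowers (ψ' u))
  have πu : π (ψ' u) = 1 := (QuotientGroup.eq_one_iff _).2 (mem_zpowers _)
  have hπ : ∀ {p q}, π p = π q → p = q ∨ p = q * ψ' u := fun {p q} e => by
    obtain ⟨n, hn⟩ := QuotientGroup.eq.1 e.symm
    simp only at hn
    rcases Int.even_or_odd' n with ⟨k, rfl | rfl⟩
    · rw [zpow_mul, zpow_two, u2, one_zpow, eq_inv_mul_iff_mul_eq, mul_one] at hn
      exact Or.inl hn.symm
    · rw [zpow_add_one, zpow_mul, zpow_two, u2, one_zpow, one_mul, eq_inv_mul_iff_mul_eq] at hn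
      exact Or.inr hn.symm
  have i' : Function.Injective ψ' := fun p q h => hψ (congrArg Subtype.val h)
  have mr : ∀ g : centralizer {ψ u}, (g : G) ∈ H → π g ∈ (H.subgroupOf _).map π :=
    fun g h => ⟨g, h, rfl⟩
  have tu : IsConj (ψ t) (ψ t * ψ u) := by
    rw [← map_mul]; exact ψ.map_isConj (isConj_iff.2 ⟨_, t_tu e⟩)
  have key := top' e (π.comp ψ') (fun p q => ⟨fun h => (hπ h).imp (@i' _ _)
    fun h => i' (by rw [map_mul]; exact h), fun h => h.elim (congrArg _) fun h => by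
      rw [h, map_mul]; exact mul_eq_left.2 πu⟩) (L := (H.subgroupOf _).map π) (fun k hk => ?_)
    (fun p => mr _ (hle p)) ?_ fun p hp => ?_
  · obtain ⟨p, hp, e1⟩ := key ▸ mem_top (π ⟨g, mem_centralizer_singleton_iff.2 hg⟩)
    rcases hπ e1.symm with h | h <;> rw [show g = _ from congrArg Subtype.val h]
    exacts [hp, mul_mem hp (hle _)]
  · obtain ⟨k, rfl⟩ := QuotientGroup.mk'_surjective _ k
    have k1 := mem_centralizer_singleton_iff.1 k.2
    refine mr k ?_
    rcases hπ (p := k * ψ' t * k⁻¹) (q := ψ' t) (by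
      rw [map_mul, map_inv, mul_inv_eq_iff_eq_mul, map_mul]
      exact mem_centralizer_singleton_iff.1 hk) with h | h
    · exact h1 _ (mul_inv_eq_iff_eq_mul.1 (congrArg Subtype.val h))
    · refine (mul_mem_cancel_left (inv_mem (hle (ev e ns [62])))).1 (h1 _ ?_)
      replace h : k * ψ t * (k : G)⁻¹ = ψ t * ψ u := congrArg Subtype.val h
      rw [← map_mul, ← t_tu, map_mul, map_mul, map_inv] at h
      calc _ = (ψ (ev e ns [62]))⁻¹ * (k * ψ t * (k : G)⁻¹) * k := by group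
        _ = _ := by rw [h]; group
  · rintro _ ⟨x, hx, rfl⟩
    obtain ⟨p, o, e1, e2, e3⟩ := hH x hx (mem_centralizer_singleton_iff.1 x.2)
    let o' : centralizer {ψ u} := ⟨o, mem_centralizer_singleton_iff.2 (e3 _)⟩
    exact ⟨p, π o', by rw [show x = ψ' p * o' from Subtype.ext e1, map_mul]; rfl,
      e2.of_dvd_nat ((orderOf_map_dvd π o').trans (Subgroup.orderOf_coe o').symm.dvd),
      fun q => (show Commute o' (ψ' q) from Subtype.ext (e3 q)).map π⟩
  · obtain ⟨k, hk⟩ := isConj_iff.1 hp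
    obtain ⟨k, rfl⟩ := QuotientGroup.mk'_surjective _ k
    have k1 := mem_centralizer_singleton_iff.1 k.2
    have c : ∀ {x}, k * ψ t * (k : G)⁻¹ = x → IsConj (ψ t) x ∧ IsConj (ψ t) (x * ψ u) := fun h =>
      ⟨isConj_iff.2 ⟨_, h⟩, tu.trans (isConj_iff.2 ⟨k, by
        rw [← conj_mul, h, k1, mul_inv_cancel_right]⟩)⟩
    have u3 : ψ u * ψ u = 1 := congrArg Subtype.val u2
    have c' : IsConj (ψ t) (ψ p) ∧ IsConj (ψ t) (ψ p * ψ u) := by
      rcases hπ (p := k * ψ' t * k⁻¹) (q := ψ' p) hk with h | h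
      · exact c (congrArg Subtype.val h)
      · have := c (x := ψ p * ψ u) (congrArg Subtype.val h)
        rw [mul_assoc, u3, mul_one] at this
        exact this.symm
    obtain ⟨r, hr, h⟩ := cls e (p := p) (hψ (by
      obtain ⟨a, ha⟩ := isConj_iff.1 c'.1
      rw [map_mul, ← ha, conj_mul, ← map_mul, DL.tt]; simp)) (by
      rintro rfl
      rw [map_one, isConj_one_left] at c'
      exact ne_of_neP mo hE bas e (v := []) (by decide +kernel) (hψ (c'.1.trans (map_one ψ).symm)))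
    simp only [List.mem_cons] at hr
    rcases hr with rfl | rfl | hr
    · exact h
    · exact absurd ((ψ.map_isConj h).trans c'.1.symm) h2
    · obtain ⟨a, rfl⟩ := isConj_iff.1 h
      refine absurd ((h3 r hr).elim (fun f => f.symm.trans ((ψ.map_isConj h).trans c'.1.symm))
        fun f => f.symm.trans (IsConj.trans (isConj_iff.2 ⟨ψ a, ?_⟩) c'.2.symm)) h2
      rw [← conj_mul, ← map_mul ψ a u, u_cen, map_mul, mul_inv_cancel_right, map_mul, map_mul, map_inv]

end Cfsg.Agent.HNS
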